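import Mathlib

set_option autoImplicit false

namespace Cfsg.Agent.Lib.DLS
open Module Function

universe u v w

/-- L4 -/
theorem base_GL {F : Type u} [Field F] [Fintype F] (p : ℕ) [Fact p.Prime]
    (hpq : ¬ p ∣ Fintype.card F) :
    0 < orderOf ((Fintype.card F : ℕ) : ZMod p) ∧
    ∃ x : Matrix.GeneralLinearGroup (Fin (orderOf ((Fintype.card F : ℕ) : ZMod p))) F,
      orderOf x = p := by
  classical
  have hp : p.Prime := Fact.out
  have hcop : Nat.Coprime (Fintype.card F) p := ((Nat.Prime.coprime_iff_not_dvd hp).mpr hpq).symm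
  have he : 0 < orderOf ((Fintype.card F : ℕ) : ZMod p) := by
    have := orderOf_pos (ZMod.unitOfCoprime (Fintype.card F) hcop)
    rw [← orderOf_units, ZMod.coe_unitOfCoprime] at this
    exact this
  refine ⟨he, ?_⟩
  have h1 : ((Fintype.card F : ℕ) : ZMod p) ^ orderOf ((Fintype.card F : ℕ) : ZMod p) = 1 :=
    pow_orderOf_eq_one _
  generalize orderOf ((Fintype.card F : ℕ) : ZMod p) = e at he h1
  have hdvd : p ∣ Fintype.card F ^ e - 1 := by
    have : ((Fintype.card F ^ e - 1 : ℕ) : ZMod p) = 0 := by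
      rw [Nat.cast_sub (Nat.one_le_pow _ _ Fintype.card_pos)]
      push_cast
      rw [h1, sub_self]
    exact (ZMod.natCast_eq_zero_iff _ _).mp this
  have hcard : p ∣ Nat.card (Matrix.GeneralLinearGroup (Fin e) F) := by
    rw [Matrix.card_GL_field]
    refine hdvd.trans ?_
    have := Finset.dvd_prod_of_mem (fun i : Fin e => Fintype.card F ^ e - Fintype.card F ^ (i : ℕ))
      (Finset.mem_univ (⟨0, he⟩ : Fin e))
    simpa using this
  exact exists_prime_orderOf_dvd_card' p hcard

end Cfsg.Agent.Lib.DLS
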