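import Mathlib

set_option autoImplicit false

namespace Cfsg.Agent.Lib.DLS
open Module Function

universe u v w

/-- L6 -/
theorem isPGroup_wreath (p : ℕ) [Fact p.Prime] {D : Type u} {Q : Type v} [Group D] [Group Q]
    [Finite D] [Finite Q] (hD : IsPGroup p D) (hQ : IsPGroup p Q) : IsPGroup p (D ≀ᵣ Q) := by
  obtain ⟨a, ha⟩ := (IsPGroup.iff_card).mp hD
  obtain ⟨b, hb⟩ := (IsPGroup.iff_card).mp hQ
  refine IsPGroup.of_card (n := a * Nat.card Q + b) ?_
  rw [RegularWreathProduct.card, ha, pow_add, pow_mul, ← hb]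

/-- L5 -/
theorem sylow_derived_ne_bot {X : Type u} {G : Type v} [Group X] [Finite X] [Group G]
    (p : ℕ) [Fact p.Prime] (hG : IsPGroup p G) (φ : G →* X) (hφ : Injective φ) (j : ℕ)
    (hj : derivedSeries G j ≠ ⊥) (P : Sylow p X) :
    derivedSeries (P : Subgroup X) j ≠ ⊥ := by
  have hr : IsPGroup p φ.range := hG.of_surjective φ.rangeRestrict φ.rangeRestrict_surjective
  obtain ⟨S, hS⟩ := hr.exists_le_sylow
  obtain ⟨g, hg⟩ := MulAction.exists_smul_eq X S P
  -- conjugate
  have hmem : ∀ a : G, g * φ a * g⁻¹ ∈ (P : Subgroup X) := by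
    intro a
    rw [← hg]
    rw [Sylow.coe_subgroup_smul, Subgroup.mem_pointwise_smul_iff_inv_smul_mem]
    have : φ a ∈ (S : Subgroup X) := hS ⟨a, rfl⟩
    simpa [MulAut.smul_def, mul_assoc] using this
  let ψ : G →* (P : Subgroup X) :=
    { toFun := fun a => ⟨g * φ a * g⁻¹, hmem a⟩
      map_one' := by ext; simp
      map_mul' := by intro a b; ext; simp [mul_assoc] }
  have hψ : Injective ψ := by
    intro a b hab
    have : g * φ a * g⁻¹ = g * φ b * g⁻¹ := congrArg Subtype.val hab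
    exact hφ (mul_left_cancel (mul_right_cancel this))
  intro hbot
  apply hj
  have h1 : (derivedSeries G j).map ψ ≤ derivedSeries (P : Subgroup X) j := map_derivedSeries_le_derivedSeries ψ j
  rw [hbot, le_bot_iff] at h1
  exact (Subgroup.map_eq_bot_iff_of_injective _ hψ).mp h1

end Cfsg.Agent.Lib.DLS
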