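import Mathlib
import Cfsg.Agent.Lib.Helper89.DLS.L4
import Cfsg.Agent.Lib.Helper89.DLS.L6
import Cfsg.Agent.Lib.Helper36.DLS.L1
import Cfsg.Agent.Lib.Helper36.DLS.L2
import Cfsg.Agent.Lib.Helper56.DLS.L3

set_option autoImplicit false

namespace Cfsg.Agent.Lib.DLS
open Module Function

universe u v w

theorem tower_GL {F : Type u} [Field F] (p : ℕ) [Fact p.Prime] (e : ℕ) (he : 0 < e)
    (x : Matrix.GeneralLinearGroup (Fin e) F) (hx : orderOf x = p) (k : ℕ) :
    ∃ (G : Type u) (_ : Group G) (_ : Finite G) (ι : Type) (_ : Fintype ι) (_ : DecidableEq ι)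
      (_ : Nonempty ι) (ρ : G →* Matrix ι ι F),
      IsPGroup p G ∧ derivedSeries G k ≠ ⊥ ∧ Injective ρ ∧ Fintype.card ι = e * p ^ k := by
  have hp : p.Prime := Fact.out
  induction k with
  | zero =>
    have hfin : Finite (Subgroup.zpowers x) := by
      have : IsOfFinOrder x := orderOf_pos_iff.mp (by rw [hx]; exact hp.pos)
      exact Nat.finite_of_card_ne_zero (by rw [Nat.card_zpowers, hx]; exact hp.ne_zero)
    have hcard : Nat.card (Subgroup.zpowers x) = p := by rw [Nat.card_zpowers, hx]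
    refine ⟨Subgroup.zpowers x, inferInstance, hfin, Fin e, inferInstance, inferInstance,
      ⟨⟨0, he⟩⟩, (Units.coeHom _).comp (Subgroup.zpowers x).subtype, ?_, ?_, ?_, by simp⟩
    · exact IsPGroup.of_card (n := 1) (by rw [hcard, pow_one])
    · rw [derivedSeries_zero]
      intro h
      have h1 : Nat.card (⊤ : Subgroup (Subgroup.zpowers x)) = 1 := by rw [h]; simp
      rw [Subgroup.card_top, hcard] at h1
      exact hp.one_lt.ne' h1
    · intro a b hab
      exact Subtype.ext (Units.ext hab)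
  | succ k ih =>
    obtain ⟨G, _, _, ι, _, _, _, ρ, hG, hd, hρ, hc⟩ := ih
    have : Nontrivial (Multiplicative (ZMod p)) := by
      have : Fact (1 < p) := ⟨hp.one_lt⟩
      infer_instance
    have : NeZero p := ⟨hp.ne_zero⟩
    obtain ⟨M, hM, -⟩ := wreath_step (Q := Multiplicative (ZMod p)) (0 : Matrix ι ι F) ρ hρ
      (by intro d; simp)
    refine ⟨G ≀ᵣ Multiplicative (ZMod p), inferInstance, inferInstance,
      ι × Multiplicative (ZMod p), inferInstance, inferInstance, inferInstance, M, ?_, ?_, hM, ?_⟩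
    · refine isPGroup_wreath p hG ?_
      exact IsPGroup.of_card (n := 1) (by simp [Nat.card_eq_fintype_card])
    · exact derivedSeries_wreath_ne_bot k hd
    · rw [Fintype.card_prod, hc]
      have : Fintype.card (Multiplicative (ZMod p)) = p := by
        rw [Fintype.card_multiplicative, ZMod.card]
      rw [this, pow_succ, mul_assoc]

theorem lower_GL {F : Type u} [Field F] [Fintype F] (p : ℕ) [Fact p.Prime]
    (hpq : ¬ p ∣ Fintype.card F) (n : ℕ) (hn : orderOf ((Fintype.card F : ℕ) : ZMod p) ≤ n)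
    (P : Sylow p (Matrix.GeneralLinearGroup (Fin n) F)) :
    derivedSeries (P : Subgroup (Matrix.GeneralLinearGroup (Fin n) F))
      (Nat.log p (n / orderOf ((Fintype.card F : ℕ) : ZMod p))) ≠ ⊥ := by
  obtain ⟨he, x, hx⟩ := base_GL (F := F) p hpq
  generalize orderOf ((Fintype.card F : ℕ) : ZMod p) = e at he x hx hn ⊢
  obtain ⟨G, _, _, ι, _, _, _, ρ, hG, hd, hρ, hc⟩ := tower_GL p e he x hx (Nat.log p (n / e))
  have h1 : p ^ Nat.log p (n / e) ≤ n / e :=
    Nat.pow_log_le_self p (Nat.div_pos hn he).ne'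
  have h2 : Fintype.card ι ≤ n := by
    rw [hc]
    calc e * p ^ Nat.log p (n / e) ≤ e * (n / e) := Nat.mul_le_mul_left _ h1
      _ ≤ n := Nat.mul_div_le n e
  obtain ⟨φ, hφ⟩ := pad_GL ρ hρ n h2
  exact sylow_derived_ne_bot p hG φ hφ _ hd P

end Cfsg.Agent.Lib.DLS
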