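import Mathlib
import Cfsg.Agent.Lib.Helper79.LinPGroup
import Cfsg.Agent.Lib.Helper89.DLS.L6
import Cfsg.Agent.Lib.Helper36.DLS.L1
import Cfsg.Agent.Lib.Helper36.DLS.S1
import Cfsg.Agent.Lib.Helper36.DLS.S2
import Cfsg.Agent.Lib.Helper56.DLS.L3
import Cfsg.Agent.Lib.Helper56.DLS.S3

set_option autoImplicit false

namespace Cfsg.Agent.Lib.DLS
open Module Function

universe u v w

theorem tower_Sp {F : Type u} [Field F] [Fintype F] (hq : Odd (Fintype.card F)) (k : ℕ) :
    ∃ (G : Type u) (_ : Group G) (_ : Finite G) (α : Type) (_ : Fintype α) (_ : DecidableEq α)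
      (_ : Nonempty α) (ρ : G →* Matrix.symplecticGroup α F),
      IsPGroup 2 G ∧ derivedSeries G (k + 1) ≠ ⊥ ∧ Injective ρ ∧ Fintype.card α = 2 ^ k := by
  induction k with
  | zero =>
    obtain ⟨G, i1, i2, ρ, h1, h2, h3⟩ := sp_base hq
    exact ⟨G, i1, i2, Fin 1, inferInstance, inferInstance, inferInstance, ρ, h1, h2, h3, by simp⟩
  | succ k ih =>
    obtain ⟨G, _, _, α, _, _, _, ρ, hG, hd, hρ, hc⟩ := ih
    obtain ⟨M, hM⟩ := sp_wreath (Q := Multiplicative (ZMod 2)) ρ hρ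
    refine ⟨G ≀ᵣ Multiplicative (ZMod 2), inferInstance, inferInstance,
      α × Multiplicative (ZMod 2), inferInstance, inferInstance, inferInstance, M, ?_, ?_, hM, ?_⟩
    · refine isPGroup_wreath 2 hG ?_
      exact IsPGroup.of_card (n := 1) (by simp [Nat.card_eq_fintype_card])
    · exact derivedSeries_wreath_ne_bot (k + 1) hd
    · rw [Fintype.card_prod, hc]
      have : Fintype.card (Multiplicative (ZMod 2)) = 2 := by
        rw [Fintype.card_multiplicative, ZMod.card]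
      rw [this, pow_succ]

theorem lower_Sp {F : Type u} [Field F] [Fintype F] (hq : Odd (Fintype.card F)) (n : ℕ)
    (hn : 1 ≤ n) (R : Sylow 2 (Matrix.symplecticGroup (Fin n) F)) :
    derivedSeries (R : Subgroup (Matrix.symplecticGroup (Fin n) F)) (Nat.log 2 (2 * n)) ≠ ⊥ := by
  have hlog : Nat.log 2 (2 * n) = Nat.log 2 n + 1 := by
    rw [mul_comm]
    exact Nat.log_mul_base (by norm_num) (by omega)
  rw [hlog]
  obtain ⟨G, _, _, α, _, _, _, ρ, hG, hd, hρ, hc⟩ := tower_Sp hq (Nat.log 2 n)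
  have h1 : Fintype.card α ≤ Fintype.card (Fin n) := by
    rw [hc, Fintype.card_fin]
    exact Nat.pow_log_le_self 2 (by omega)
  obtain ⟨φ, hφ⟩ := sp_pad (F := F) h1
  exact sylow_derived_ne_bot 2 hG (φ.comp ρ) (hφ.comp hρ) _ hd R

theorem upper_Sp {F : Type u} [Field F] [Fintype F] (n : ℕ)
    (R : Subgroup (Matrix.symplecticGroup (Fin n) F)) (hR : IsPGroup 2 R) :
    derivedSeries R (Nat.log 2 (2 * n) + 1) = ⊥ := by
  have hinj : Injective ((Matrix.symplecticGroup (Fin n) F).subtype.comp R.subtype) := by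
    intro a b hab
    exact Subtype.ext (Subtype.ext hab)
  obtain ⟨φ, hφ⟩ := pad_GL ((Matrix.symplecticGroup (Fin n) F).subtype.comp R.subtype) hinj (2 * n)
    (by simp; omega)
  exact Cfsg.Agent.Lib.Helper79.LPG.main 2 hR F (2 * n) φ hφ

end Cfsg.Agent.Lib.DLS
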