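import Mathlib
import Cfsg.Agent.Lib.Helper79.LinPGroup

set_option autoImplicit false

namespace Cfsg.Agent.Lib.DLS
open Module Function
open Cfsg.Agent.Lib.Helper79.LPG

universe u v w

theorem U1_sum_eig {K : Type w} [Field K] {V : Type v} [AddCommGroup V] [Module K V]
    [FiniteDimensional K V] (X : Module.End K V) (s : Finset K) (d : ℕ)
    (h : ∀ μ ∈ s, d ≤ finrank K (Module.End.eigenspace X μ)) : s.card * d ≤ finrank K V := by
  classical
  have key : ∀ s : Finset K, (∀ μ ∈ s, d ≤ finrank K (Module.End.eigenspace X μ)) →
      s.card * d ≤ finrank K (⨆ μ ∈ s, Module.End.eigenspace X μ : Submodule K V) := by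
    intro s
    induction s using Finset.induction_on with
    | empty => intro _; simp
    | insert a s ha ih =>
      intro h
      have h1 := ih (fun μ hμ => h μ (Finset.mem_insert_of_mem hμ))
      have h2 := h a (Finset.mem_insert_self a s)
      have hdis : Disjoint (Module.End.eigenspace X a) (⨆ μ ∈ s, Module.End.eigenspace X μ) := by
        have := (Module.End.eigenspaces_iSupIndep X).disjoint_biSup (x := a) (y := (s : Set K))
          (by simpa using ha)
        simpa using this
      rw [Finset.iSup_insert, Finset.card_insert_of_notMem ha]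
      have h3 := Submodule.finrank_sup_add_finrank_inf_eq (Module.End.eigenspace X a)
        (⨆ μ ∈ s, Module.End.eigenspace X μ)
      rw [hdis.eq_bot, finrank_bot, add_zero] at h3
      rw [h3, add_mul, one_mul]
      omega
  exact (key s h).trans (Submodule.finrank_le _)

variable {K : Type w} [Field K]

theorem claimAp [IsAlgClosed K] (p : ℕ) [hp : Fact p.Prime] (hpK : (p : K) ≠ 0) (n : ℕ) :
    ∀ (P : Type u) [Group P] [Finite P], IsPGroup p P →
      ∀ (V : Type v) [AddCommGroup V] [Module K V] [FiniteDimensional K V], finrank K V = n →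
        ∀ (ρ : P →* Module.End K V), ∀ x ∈ derivedSeries P (Nat.log p n + 1), ρ x = 1 := by
  classical
  induction n using Nat.strong_induction_on with
  | _ n ih =>
  intro P _ _ hP V _ _ _ hn ρ x hx
  by_cases hn0 : n = 0
  · haveI : Subsingleton V := Module.finrank_zero_iff.mp (hn.trans hn0)
    ext y
    exact Subsingleton.elim _ _
  haveI : Nontrivial V := Module.nontrivial_of_finrank_pos (R := K) (by omega)
  by_cases hred : ∃ U : Submodule K V, (∀ g, ∀ y ∈ U, ρ g y ∈ U) ∧ U ≠ ⊥ ∧ U ≠ ⊤
  · obtain ⟨U, hU, hbot, htop⟩ := hred
    have hq : finrank K (V ⧸ U) + finrank K U = finrank K V := Submodule.finrank_quotient_add_finrank U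
    have h1 : 0 < finrank K U := by
      haveI : Nontrivial U := (Submodule.nontrivial_iff_ne_bot).mpr hbot
      exact Module.finrank_pos
    have h2 : finrank K U < finrank K V := Submodule.finrank_lt htop
    have t1 : ∀ a ∈ U, ρ x a = a := by
      intro a ha
      have hx' : x ∈ derivedSeries P (Nat.log p (finrank K U) + 1) :=
        derivedSeries_antitone P (Nat.add_le_add_right (Nat.log_mono_right (by omega)) 1) hx
      have := ih _ (by omega) P hP U rfl (resU ρ U hU) x hx'
      exact congrArg Subtype.val (LinearMap.congr_fun this ⟨a, ha⟩)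
    have t2 : ∀ a, ρ x a - a ∈ U := by
      intro a
      have hx' : x ∈ derivedSeries P (Nat.log p (finrank K (V ⧸ U)) + 1) :=
        derivedSeries_antitone P (Nat.add_le_add_right (Nat.log_mono_right (by omega)) 1) hx
      have := ih _ (by omega) P hP (V ⧸ U) rfl (quoU ρ U hU) x hx'
      have h3 := LinearMap.congr_fun this (U.mkQ a)
      rw [quoU_mk, Module.End.one_apply] at h3
      exact (Submodule.Quotient.eq U).mp h3
    set N : Module.End K V := ρ x - 1 with hN
    have hNN : N * N = 0 := by
      ext a
      simp only [Module.End.mul_apply, hN, LinearMap.sub_apply, Module.End.one_apply,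
        LinearMap.zero_apply]
      rw [t1 _ (t2 a), sub_self]
    obtain ⟨k, hk⟩ := hP x
    have h3 : (1 + N) ^ (p ^ k) = 1 := by
      rw [hN, add_sub_cancel, ← map_pow, hk, map_one]
    rw [one_add_pow_of_sq_zero N hNN] at h3
    have h4 : ((p ^ k : ℕ) : K) • N = 0 := by
      simpa using h3
    have h5 : ((p ^ k : ℕ) : K) ≠ 0 := by
      push_cast
      exact pow_ne_zero _ hpK
    have h6 : N = 0 := (smul_eq_zero.mp h4).resolve_left h5
    rw [hN, sub_eq_zero] at h6
    exact h6
  · push Not at hred
    have hirr : ∀ U : Submodule K V, (∀ g, ∀ y ∈ U, ρ g y ∈ U) → U ≠ ⊥ → U = ⊤ := hred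
    have schur : ∀ z, (∀ g, ρ z * ρ g = ρ g * ρ z) → ∃ c : K, ρ z = c • (1 : Module.End K V) := by
      intro z hz
      obtain ⟨c, hc⟩ := Module.End.exists_eigenvalue (ρ z)
      refine ⟨c, ?_⟩
      have htop := hirr (Module.End.eigenspace (ρ z) c) (by
        intro g y hy
        rw [Module.End.mem_eigenspace_iff] at hy ⊢
        rw [← Module.End.mul_apply, hz g, Module.End.mul_apply, hy, map_smul]) hc
      ext y
      have : y ∈ Module.End.eigenspace (ρ z) c := by rw [htop]; trivial
      rw [Module.End.mem_eigenspace_iff] at this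
      rw [this]; simp
    by_cases hab : ∀ g h, ρ g * ρ h = ρ h * ρ g
    · have hle : derivedSeries P 1 ≤ ρ.ker := by
        rw [derivedSeries_succ, Subgroup.commutator_le]
        intro a _ b _
        rw [MonoidHom.mem_ker, commutatorElement_def, map_mul, map_mul, map_mul, hab a b,
          mul_assoc (ρ b), inv_right, mul_one, inv_right]
      exact hle (derivedSeries_antitone P (by omega) hx)
    · push Not at hab
      let C : Subgroup P :=
        { carrier := {z | ∀ g, ρ z * ρ g = ρ g * ρ z}
          one_mem' := by intro g; simp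
          mul_mem' := by
            intro a b ha hb g
            simp only [Set.mem_ofPred_eq] at ha hb
            rw [map_mul, mul_assoc, hb g, ← mul_assoc, ha g, mul_assoc]
          inv_mem' := by
            intro a ha g
            simp only [Set.mem_ofPred_eq] at ha
            calc ρ a⁻¹ * ρ g = ρ a⁻¹ * (ρ g * ρ a) * ρ a⁻¹ := by
                  rw [mul_assoc, mul_assoc, inv_right, mul_one]
              _ = ρ a⁻¹ * (ρ a * ρ g) * ρ a⁻¹ := by rw [ha g]
              _ = ρ g * ρ a⁻¹ := by rw [← mul_assoc, inv_left, one_mul] }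
      have hCmem : ∀ z, z ∈ C ↔ ∀ g, ρ z * ρ g = ρ g * ρ z := fun z => Iff.rfl
      haveI hCn : C.Normal := by
        constructor
        intro z hz g
        rw [hCmem] at hz ⊢
        have : ρ (g * z * g⁻¹) = ρ z := by
          rw [map_mul, map_mul, ← hz g, mul_assoc, inv_right, mul_one]
        intro h
        rw [this, hz h]
      have hCtop : C ≠ ⊤ := by
        intro h
        obtain ⟨g, h', hgh⟩ := hab
        apply hgh
        have : g ∈ C := by rw [h]; trivial
        exact this h'
      haveI : Nontrivial (P ⧸ C) := by
        rw [QuotientGroup.nontrivial_iff]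
        exact hCtop
      haveI := (hP.to_quotient C).center_nontrivial
      obtain ⟨⟨y, hyc⟩, hy1⟩ := exists_ne (1 : Subgroup.center (P ⧸ C))
      obtain ⟨x₀, rfl⟩ := QuotientGroup.mk_surjective y
      have hx₀ : x₀ ∉ C := by
        intro h
        apply hy1
        apply Subtype.ext
        exact (QuotientGroup.eq_one_iff x₀).mpr h
      have hcomm : ∀ g, x₀ * g * x₀⁻¹ * g⁻¹ ∈ C := by
        intro g
        rw [← QuotientGroup.eq_one_iff]
        have h1 := Subgroup.mem_center_iff.mp hyc (g : P ⧸ C)
        rw [QuotientGroup.mk_mul, QuotientGroup.mk_mul, QuotientGroup.mk_mul, QuotientGroup.mk_inv,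
          QuotientGroup.mk_inv, ← h1]
        group
      set X : Module.End K V := ρ x₀ with hX
      have hXc : ∀ g, ∃ c : K, X * ρ g = c • (ρ g * X) := by
        intro g
        obtain ⟨c, hc⟩ := schur _ ((hCmem _).mp (hcomm g))
        refine ⟨c, ?_⟩
        have : X * ρ g = ρ (x₀ * g * x₀⁻¹ * g⁻¹) * (ρ g * X) := by
          rw [hX, ← map_mul, ← map_mul, ← map_mul]
          congr 1
          group
        rw [this, hc, smul_mul_assoc, one_mul]
      choose c hc using hXc
      have hXl : ρ x₀⁻¹ * X = 1 := inv_left ρ x₀
      have hc0 : ∀ g, c g ≠ 0 := by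
        intro g h0
        have h1 := hc g
        rw [h0, zero_smul] at h1
        have h2 : (1 : Module.End K V) = ρ x₀⁻¹ * (X * ρ g) * ρ g⁻¹ := by
          rw [← mul_assoc, hXl, one_mul, inv_right]
        rw [h1, mul_zero, zero_mul] at h2
        exact one_ne_zero h2
      have hcinv : ∀ g, X * ρ g⁻¹ = (c g)⁻¹ • (ρ g⁻¹ * X) := by
        intro g
        have h1 : ρ g⁻¹ * X = c g • (X * ρ g⁻¹) := by
          calc ρ g⁻¹ * X = ρ g⁻¹ * (X * ρ g) * ρ g⁻¹ := by
                rw [mul_assoc, mul_assoc, inv_right, mul_one]
            _ = c g • (X * ρ g⁻¹) := by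
                rw [hc g, mul_smul_comm, smul_mul_assoc, ← mul_assoc, inv_left, one_mul]
        rw [h1, smul_smul, inv_mul_cancel₀ (hc0 g), one_smul]
      let M : Subgroup P :=
        { carrier := {g | X * ρ g = ρ g * X}
          one_mem' := by simp
          mul_mem' := by
            intro a b ha hb
            simp only [Set.mem_ofPred_eq] at ha hb ⊢
            rw [map_mul, ← mul_assoc, ha, mul_assoc, hb, mul_assoc]
          inv_mem' := by
            intro a ha
            simp only [Set.mem_ofPred_eq] at ha ⊢
            calc X * ρ a⁻¹ = ρ a⁻¹ * (ρ a * X) * ρ a⁻¹ := by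
                  rw [← mul_assoc, inv_left, one_mul]
              _ = ρ a⁻¹ * (X * ρ a) * ρ a⁻¹ := by rw [ha]
              _ = ρ a⁻¹ * X := by rw [mul_assoc, mul_assoc, inv_right, mul_one] }
      have hMmem : ∀ g, g ∈ M ↔ X * ρ g = ρ g * X := fun g => Iff.rfl
      have hMcomm : commutator P ≤ M := by
        rw [commutator_def, Subgroup.commutator_le]
        intro a _ b _
        rw [hMmem, commutatorElement_def, map_mul, map_mul, map_mul]
        calc X * (ρ a * ρ b * ρ a⁻¹ * ρ b⁻¹) = (X * ρ a) * ρ b * ρ a⁻¹ * ρ b⁻¹ := by
              simp only [mul_assoc]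
          _ = c a • (ρ a * (X * ρ b) * ρ a⁻¹ * ρ b⁻¹) := by
              rw [hc a]; simp only [smul_mul_assoc, mul_assoc]
          _ = (c a * c b) • (ρ a * ρ b * (X * ρ a⁻¹) * ρ b⁻¹) := by
              rw [hc b]; simp only [smul_mul_assoc, mul_smul_comm, mul_assoc, smul_smul]
          _ = (c a * c b * (c a)⁻¹) • (ρ a * ρ b * ρ a⁻¹ * (X * ρ b⁻¹)) := by
              rw [hcinv a]; simp only [smul_mul_assoc, mul_smul_comm, mul_assoc, smul_smul]
          _ = (c a * c b * (c a)⁻¹ * (c b)⁻¹) • (ρ a * ρ b * ρ a⁻¹ * ρ b⁻¹ * X) := by
              rw [hcinv b]; simp only [mul_smul_comm, mul_assoc, smul_smul]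
          _ = ρ a * ρ b * ρ a⁻¹ * ρ b⁻¹ * X := by
              have : c a * c b * (c a)⁻¹ * (c b)⁻¹ = 1 := by
                field_simp [hc0 a, hc0 b]
              rw [this, one_smul]
      obtain ⟨g₀, hg₀⟩ : ∃ g₀, X * ρ g₀ ≠ ρ g₀ * X := by
        by_contra hcon
        push Not at hcon
        exact hx₀ hcon
      have hc₀ : c g₀ ≠ 1 := by
        intro h
        apply hg₀
        rw [hc g₀, h, one_smul]
      let E : K → Submodule K V := fun β => Module.End.eigenspace X β
      have hEmem : ∀ β y, y ∈ E β ↔ X y = β • y := fun β y => Module.End.mem_eigenspace_iff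
      have hEmap : ∀ g β, ∀ y ∈ E β, ρ g y ∈ E (c g * β) := by
        intro g β y hy
        rw [hEmem] at hy ⊢
        rw [← Module.End.mul_apply, hc g, LinearMap.smul_apply, Module.End.mul_apply, hy, map_smul,
          smul_smul]
      have hEtop : ⨆ β, E β = ⊤ := by
        apply hirr
        · intro g y hy
          have hle : (⨆ β, E β).map (ρ g) ≤ ⨆ β, E β := by
            rw [Submodule.map_iSup]
            apply iSup_le
            intro β
            rintro _ ⟨y, hy, rfl⟩
            exact Submodule.mem_iSup_of_mem (c g * β) (hEmap g β y hy)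
          exact hle ⟨y, hy, rfl⟩
        · obtain ⟨β, hβ⟩ := Module.End.exists_eigenvalue X
          intro h
          apply hβ
          rw [eq_bot_iff, ← h]
          exact le_iSup E β
      have hEstep : ∀ β, finrank K (E β) ≤ finrank K (E (c g₀ * β)) := by
        intro β
        apply LinearMap.finrank_le_finrank_of_injective
          (f := (ρ g₀).restrict (hEmap g₀ β))
        intro a b hab'
        apply Subtype.ext
        have h3 : ρ g₀ (a : V) = ρ g₀ (b : V) := congrArg Subtype.val hab'
        have h4 := congrArg (ρ g₀⁻¹) h3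
        rwa [← Module.End.mul_apply, ← Module.End.mul_apply, inv_left, Module.End.one_apply,
          Module.End.one_apply] at h4
      have hEiter : ∀ β (i : ℕ), finrank K (E β) ≤ finrank K (E (c g₀ ^ i * β)) := by
        intro β i
        induction i with
        | zero => rw [pow_zero, one_mul]
        | succ i ihi =>
          refine ihi.trans ?_
          have := hEstep (c g₀ ^ i * β)
          rwa [← mul_assoc, ← pow_succ'] at this
      have hXpow : ∀ m : ℕ, X * (ρ g₀) ^ m = c g₀ ^ m • ((ρ g₀) ^ m * X) := by
        intro m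
        induction m with
        | zero => simp
        | succ m ihm =>
          rw [pow_succ, ← mul_assoc, ihm, smul_mul_assoc, mul_assoc, hc g₀, mul_smul_comm,
            smul_smul, ← mul_assoc, ← pow_succ]
      obtain ⟨k₀, hk₀⟩ := hP g₀
      have hcpow : c g₀ ^ p ^ k₀ = 1 := by
        have h1 := hXpow (p ^ k₀)
        rw [← map_pow, hk₀, map_one, mul_one, one_mul] at h1
        have h2 : (1 : Module.End K V) = c g₀ ^ p ^ k₀ • (1 : Module.End K V) := by
          calc (1 : Module.End K V) = ρ x₀⁻¹ * X := hXl.symm
            _ = ρ x₀⁻¹ * (c g₀ ^ p ^ k₀ • X) := by rw [← h1]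
            _ = c g₀ ^ p ^ k₀ • (1 : Module.End K V) := by rw [mul_smul_comm, hXl]
        have h3 : (c g₀ ^ p ^ k₀ - 1) • (1 : Module.End K V) = 0 := by
          rw [sub_smul, one_smul, ← h2, sub_self]
        rcases smul_eq_zero.mp h3 with h4 | h4
        · exact sub_eq_zero.mp h4
        · exact absurd h4 one_ne_zero
      have hpord : p ≤ orderOf (c g₀) := by
        have h1 : orderOf (c g₀) ∣ p ^ k₀ := orderOf_dvd_of_pow_eq_one hcpow
        obtain ⟨a, -, ha⟩ := (Nat.dvd_prime_pow hp.out).mp h1
        rcases Nat.eq_zero_or_pos a with h0 | h0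
        · exfalso
          rw [h0, pow_zero, orderOf_eq_one_iff] at ha
          exact hc₀ ha
        · rw [ha]
          calc p = p ^ 1 := (pow_one p).symm
            _ ≤ p ^ a := Nat.pow_le_pow_right hp.out.pos h0
      have hEdim : ∀ β, p * finrank K (E β) ≤ n := by
        intro β
        by_cases hβ : β = 0
        · have : E β = ⊥ := by
            rw [eq_bot_iff]
            intro y hy
            rw [hEmem, hβ, zero_smul] at hy
            rw [Submodule.mem_bot]
            have := congrArg (ρ x₀⁻¹) hy
            rwa [← Module.End.mul_apply, hXl, map_zero, Module.End.one_apply] at this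
          rw [this, finrank_bot]; omega
        · have hinj : Set.InjOn (fun i : ℕ => c g₀ ^ i * β) (Finset.range p : Set ℕ) := by
            intro i hi j hj hij
            have hij' : c g₀ ^ i = c g₀ ^ j := mul_right_cancel₀ hβ hij
            refine pow_injOn_Iio_orderOf ?_ ?_ hij'
            · exact lt_of_lt_of_le (Finset.mem_range.mp hi) hpord
            · exact lt_of_lt_of_le (Finset.mem_range.mp hj) hpord
          have h1 := U1_sum_eig X ((Finset.range p).image (fun i : ℕ => c g₀ ^ i * β))
            (finrank K (E β)) (by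
              intro μ hμ
              obtain ⟨i, -, rfl⟩ := Finset.mem_image.mp hμ
              exact hEiter β i)
          rw [Finset.card_image_of_injOn hinj, Finset.card_range, hn] at h1
          exact h1
      obtain ⟨m, hm, rfl⟩ := derived_shift M hMcomm _ hx
      have hfixE : ∀ β, ∀ y ∈ E β, ρ (m : P) y = y := by
        intro β y hy
        by_cases h0 : finrank K (E β) = 0
        · have : E β = ⊥ := Submodule.finrank_eq_zero.mp h0
          rw [this, Submodule.mem_bot] at hy
          rw [hy, map_zero]
        · have hinv : ∀ g : M, ∀ y ∈ E β, (ρ.comp M.subtype) g y ∈ E β := by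
            intro g y hy
            rw [hEmem] at hy ⊢
            simp only [MonoidHom.comp_apply, Subgroup.coe_subtype]
            rw [← Module.End.mul_apply, (hMmem _).mp g.2, Module.End.mul_apply, hy, map_smul]
          have hlog : Nat.log p (finrank K (E β)) + 1 ≤ Nat.log p n := by
            rw [← Nat.log_mul_base hp.out.one_lt h0]
            apply Nat.log_mono_right
            have := hEdim β
            rwa [mul_comm]
          have hm' : m ∈ derivedSeries M (Nat.log p (finrank K (E β)) + 1) :=
            derivedSeries_antitone M hlog hm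
          have hlt : finrank K (E β) < n := by
            have h1 := hEdim β
            have h2 : 2 * finrank K (E β) ≤ p * finrank K (E β) :=
              Nat.mul_le_mul_right _ hp.out.two_le
            omega
          have := ih _ hlt M (hP.to_subgroup M) (E β) rfl
            (resU (ρ.comp M.subtype) (E β) hinv) m hm'
          exact congrArg Subtype.val (LinearMap.congr_fun this ⟨y, hy⟩)
      have hker : (⊤ : Submodule K V) ≤ LinearMap.ker (ρ (m : P) - 1) := by
        rw [← hEtop]
        apply iSup_le
        intro β y hy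
        rw [LinearMap.mem_ker, LinearMap.sub_apply, Module.End.one_apply, hfixE β y hy, sub_self]
      ext y
      have : y ∈ LinearMap.ker (ρ (m : P) - 1) := hker trivial
      rw [LinearMap.mem_ker, LinearMap.sub_apply, Module.End.one_apply, sub_eq_zero] at this
      simpa using this


end Cfsg.Agent.Lib.DLS
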