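import Mathlib

set_option autoImplicit false

namespace Cfsg.Agent.Lib.DLS
open Module Function

universe u v w

theorem U2_sum_count {α : Type u} [DecidableEq α] (m : Multiset α) (s : Finset α) :
    ∑ a ∈ s, m.count a ≤ Multiset.card m := by
  calc ∑ a ∈ s, m.count a ≤ ∑ a ∈ s ∪ m.toFinset, m.count a :=
        Finset.sum_le_sum_of_subset Finset.subset_union_left
    _ = ∑ a ∈ m.toFinset, m.count a := by
        symm
        apply Finset.sum_subset Finset.subset_union_right
        intro x _ hx
        rw [Multiset.count_eq_zero]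
        simpa using hx
    _ = Multiset.card m := Multiset.toFinset_sum_count_eq m

/-- U2 -/
theorem frob_bound {F : Type u} [Field F] [Fintype F] (K : Type v) [Field K] [Algebra F K]
    (p : ℕ) [Fact p.Prime] (n : ℕ) (A : Matrix (Fin n) (Fin n) F)
    (ζ : K) (hζ1 : ζ ≠ 1) (k : ℕ) (hζ : ζ ^ p ^ k = 1) (U : Submodule K (Fin n → K))
    (hU : ∀ y ∈ U, (A.map (algebraMap F K)).mulVec y = ζ • y) :
    orderOf ((Fintype.card F : ℕ) : ZMod p) * finrank K U ≤ n := by
  classical
  have hp : p.Prime := Fact.out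
  set q := Fintype.card F with hq
  set e := orderOf ((q : ℕ) : ZMod p) with he
  set B := A.map (algebraMap F K) with hB
  set χ := B.charpoly with hχ
  have hχmap : χ = A.charpoly.map (algebraMap F K) := Matrix.charpoly_map A _
  let σ : K →ₐ[F] K := FiniteField.frobeniusAlgHom F K
  have hσ : ∀ x, σ x = x ^ q := fun x => rfl
  have hχσ : χ.map (σ : K →+* K) = χ := by
    rw [hχmap, Polynomial.map_map]
    congr 1
    exact AlgHom.comp_algebraMap σ
  have h1 : finrank K U ≤ χ.rootMultiplicity ζ := by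
    have hle : U ≤ Module.End.eigenspace (Matrix.toLin' B) ζ := by
      intro y hy
      rw [Module.End.mem_eigenspace_iff, Matrix.toLin'_apply]
      exact hU y hy
    have := LinearMap.finrank_eigenspace_le (Matrix.toLin' B) ζ
    rw [Matrix.charpoly_toLin'] at this
    exact (Submodule.finrank_mono hle).trans this
  have h2 : ∀ x : K, χ.rootMultiplicity (x ^ q) = χ.rootMultiplicity x := by
    intro x
    have := Polynomial.eq_rootMultiplicity_map (p := χ) (f := (σ : K →+* K)) σ.toRingHom.injective x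
    rw [hχσ] at this
    exact this.symm
  have h3 : ∀ i : ℕ, χ.rootMultiplicity (ζ ^ q ^ i) = χ.rootMultiplicity ζ := by
    intro i
    induction i with
    | zero => simp
    | succ i ih => rw [pow_succ, pow_mul, h2, ih]
  -- distinctness
  have hpo : p ∣ orderOf ζ := by
    have h1 : orderOf ζ ∣ p ^ k := orderOf_dvd_of_pow_eq_one hζ
    obtain ⟨a, -, ha⟩ := (Nat.dvd_prime_pow hp).mp h1
    rcases Nat.eq_zero_or_pos a with h0 | h0
    · exfalso
      rw [h0, pow_zero, orderOf_eq_one_iff] at ha
      exact hζ1 ha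
    · rw [ha]
      exact dvd_pow_self p h0.ne'
  have hinj : Set.InjOn (fun i : ℕ => ζ ^ q ^ i) (Finset.range e : Set ℕ) := by
    intro i hi j hj hij
    have hij0 : ζ ^ q ^ i = ζ ^ q ^ j := hij
    have hζ0 : ζ ≠ 0 := by
      rintro rfl
      rw [zero_pow (pow_ne_zero _ hp.ne_zero)] at hζ
      exact zero_ne_one hζ
    have hij' : (Units.mk0 ζ hζ0) ^ q ^ i = (Units.mk0 ζ hζ0) ^ q ^ j :=
      Units.ext (by simpa using hij0)
    rw [pow_eq_pow_iff_modEq, ← orderOf_units, Units.val_mk0] at hij'
    have h4 : q ^ i ≡ q ^ j [MOD p] := hij'.of_dvd hpo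
    have h5 : ((q : ℕ) : ZMod p) ^ i = ((q : ℕ) : ZMod p) ^ j := by
      have := (ZMod.natCast_eq_natCast_iff _ _ _).mpr h4
      push_cast at this
      exact this
    exact pow_injOn_Iio_orderOf (Finset.mem_range.mp hi) (Finset.mem_range.mp hj) h5
  have hχ0 : χ ≠ 0 := (Matrix.charpoly_monic B).ne_zero
  have h6 := U2_sum_count χ.roots ((Finset.range e).image (fun i : ℕ => ζ ^ q ^ i))
  rw [Finset.sum_image hinj] at h6
  have h7 : ∑ i ∈ Finset.range e, χ.roots.count (ζ ^ q ^ i) = e * χ.rootMultiplicity ζ := by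
    rw [Finset.sum_congr rfl (fun i _ => by rw [Polynomial.count_roots, h3 i])]
    simp
  rw [h7] at h6
  have h8 : Multiset.card χ.roots ≤ n := by
    have := Polynomial.card_roots' χ
    rw [hχ, Matrix.charpoly_natDegree_eq_dim, Fintype.card_fin] at this
    exact this
  calc e * finrank K U ≤ e * χ.rootMultiplicity ζ := Nat.mul_le_mul_left _ h1
    _ ≤ n := h6.trans h8

end Cfsg.Agent.Lib.DLS
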