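import Mathlib
import Cfsg.Agent.Lib.Helper79.LinPGroup
import Cfsg.Agent.Lib.Helper89.DLS.U1
import Cfsg.Agent.Lib.Helper89.DLS.U2
import Cfsg.Agent.Lib.Helper89.DLS.L4
import Cfsg.Agent.Lib.Helper36.DLS.U3
import Cfsg.Agent.Lib.Helper36.DLS.U4

set_option autoImplicit false

namespace Cfsg.Agent.Lib.DLS
open Module Function

universe u v w

theorem U5_cast_ne_zero {F : Type u} [Field F] [Fintype F] (p : ℕ) [Fact p.Prime]
    (hpq : ¬ p ∣ Fintype.card F) : (p : F) ≠ 0 := by
  intro h0
  have hp : p.Prime := Fact.out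
  have h1 : ringChar F ∣ p := (ringChar.spec F p).mp h0
  have h2 : ringChar F ∣ Fintype.card F := (ringChar.spec F _).mp (FiniteField.cast_card_eq_zero F)
  rcases (Nat.dvd_prime hp).mp h1 with h | h
  · exact CharP.ringChar_ne_one h
  · exact hpq (h ▸ h2)

/-- U5 (assembly of U1-U4) -/
theorem upper {F : Type u} [Field F] [Fintype F] (p : ℕ) [Fact p.Prime]
    (hpq : ¬ p ∣ Fintype.card F) (n : ℕ) (P : Subgroup (Matrix.GeneralLinearGroup (Fin n) F))
    (hP : IsPGroup p P) :
    derivedSeries P (Nat.log p (n / orderOf ((Fintype.card F : ℕ) : ZMod p)) + 1) = ⊥ := by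
  classical
  have hp : p.Prime := Fact.out
  have he0 : 0 < orderOf ((Fintype.card F : ℕ) : ZMod p) := (base_GL (F := F) p hpq).1
  set e := orderOf ((Fintype.card F : ℕ) : ZMod p) with he
  set j := Nat.log p (n / e) with hj
  let K := AlgebraicClosure F
  have hpK : (p : K) ≠ 0 := by
    have := U5_cast_ne_zero (F := F) p hpq
    intro h
    apply this
    apply (algebraMap F K).injective
    rw [map_natCast, h, map_zero]
  let ρ : P →* Module.End K (Fin n → K) :=
    ((Matrix.toLinAlgEquiv' : Matrix (Fin n) (Fin n) K ≃ₐ[K] _).toAlgHom.toRingHom.toMonoidHom).comp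
      (((algebraMap F K).mapMatrix (m := Fin n)).toMonoidHom.comp
        ((Units.coeHom _).comp P.subtype))
  have hρ : ∀ (g : P) (y : Fin n → K),
      ρ g y = ((g : Matrix.GeneralLinearGroup (Fin n) F).val.map (algebraMap F K)).mulVec y := by
    intro g y
    rfl
  have hρinj : Injective ρ := by
    intro a b hab
    have h1 : ((a : Matrix.GeneralLinearGroup (Fin n) F).val.map (algebraMap F K))
        = ((b : Matrix.GeneralLinearGroup (Fin n) F).val.map (algebraMap F K)) :=
      (Matrix.toLinAlgEquiv' : Matrix (Fin n) (Fin n) K ≃ₐ[K] _).injective hab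
    have h2 : (a : Matrix.GeneralLinearGroup (Fin n) F).val
        = (b : Matrix.GeneralLinearGroup (Fin n) F).val :=
      Matrix.map_injective (algebraMap F K).injective h1
    exact Subtype.ext (Units.ext h2)
  by_contra hne
  obtain ⟨d₀, hd₀, hd₀1⟩ : ∃ d₀ ∈ derivedSeries P (j + 1), d₀ ≠ 1 := by
    by_contra hcon
    push Not at hcon
    exact hne ((Subgroup.eq_bot_iff_forall _).mpr hcon)
  have hN : (Nat.card (derivedSeries P (j + 1)) : K) ≠ 0 := by
    obtain ⟨m, hm⟩ := (IsPGroup.iff_card).mp (hP.to_subgroup (derivedSeries P (j + 1)))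
    rw [hm]
    push_cast
    exact pow_ne_zero _ hpK
  have hne1 : ρ d₀ ≠ 1 := by
    intro h
    exact hd₀1 (hρinj (h.trans (map_one ρ).symm))
  obtain ⟨U, hU, hirr, d, hd, y, hy, hdy⟩ := exists_irred ρ (derivedSeries P (j + 1)) hN d₀ hd₀ hne1
  have hy0 : y ≠ 0 := by
    rintro rfl
    exact hdy (map_zero _)
  have hUpos : finrank K U ≠ 0 := by
    have : Nontrivial U := ⟨⟨⟨y, hy⟩, 0, fun h => hy0 (congrArg Subtype.val h)⟩⟩
    exact Module.finrank_pos.ne'
  have hlog : j < Nat.log p (finrank K U) := by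
    by_contra hcon
    push Not at hcon
    have hd' : d ∈ derivedSeries P (Nat.log p (finrank K U) + 1) :=
      derivedSeries_antitone P (Nat.add_le_add_right hcon 1) hd
    have := claimAp p hpK (finrank K U) P hP U rfl (Cfsg.Agent.Lib.Helper79.LPG.resU ρ U hU) d hd'
    exact hdy (congrArg Subtype.val (LinearMap.congr_fun this ⟨y, hy⟩))
  have h1 : p ^ (j + 1) ≤ finrank K U := Nat.pow_le_of_le_log hUpos hlog
  have h2 : n / e < p ^ (j + 1) := Nat.lt_pow_succ_log_self hp.one_lt _
  obtain ⟨z, ζ, hζ1, hz⟩ := exists_scalar p hP ρ U hU hirr d y hy hdy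
  obtain ⟨k, hk⟩ := hP z
  have hpow : ∀ m : ℕ, ∀ y ∈ U, ρ (z ^ m) y = ζ ^ m • y := by
    intro m
    induction m with
    | zero => intro y _; simp
    | succ m ih =>
      intro y hy
      rw [pow_succ, map_mul, Module.End.mul_apply, hz y hy, map_smul, ih y hy, smul_smul, pow_succ,
        mul_comm]
  have hζ : ζ ^ p ^ k = 1 := by
    have h := hpow (p ^ k) y hy
    rw [hk, map_one, Module.End.one_apply] at h
    have h' : (ζ ^ p ^ k - 1) • y = 0 := by rw [sub_smul, one_smul, ← h, sub_self]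
    rcases smul_eq_zero.mp h' with h'' | h''
    · exact sub_eq_zero.mp h''
    · exact absurd h'' hy0
  have h3 := frob_bound K p n (z : Matrix.GeneralLinearGroup (Fin n) F).val ζ hζ1 k hζ U
    (fun y hy => (hρ z y).symm.trans (hz y hy))
  have h4 : n < finrank K U * e := (Nat.div_lt_iff_lt_mul he0).mp (lt_of_lt_of_le h2 h1)
  rw [mul_comm] at h4
  exact absurd h3 (not_le.mpr h4)

end Cfsg.Agent.Lib.DLS
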